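import Groth.Prelude.Def_ConstGrp
import Mathlib.RingTheory.Bialgebra.Equiv
import Mathlib.Data.ZMod.Basic
import Mathlib.Algebra.CharP.Lemmas
import Mathlib.Algebra.CharP.Algebra
import Mathlib.FieldTheory.Finite.Basic

/-!
# helper24: the constant group `ℤ/p` is not isomorphic to an infinitesimal one

If `B` is a commutative `R`-bialgebra in which every `p`-th power lies in the image of `R`
(e.g. `R[ℤ/p]` or `R[X]/(X^p)` in characteristic `p`), then the only idempotent of `B` with
counit `1` is `1`; but in `ConstGrp.F R (ℤ/p)` the indicator of the identity is such an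
idempotent different from `1`.
-/

set_option autoImplicit false
set_option linter.style.haveILetI false
universe u

namespace Groth.Agent.Lib.Helper24

open Coalgebra

theorem idem_eq_one_of_pow_mem {R : Type u} [CommRing R] {B : Type u} [CommRing B] [Bialgebra R B]
    (p : ℕ) [Fact p.Prime] (hB : ∀ y : B, ∃ r : R, y ^ p = algebraMap R B r) (y : B)
    (hy : y * y = y) (hc : counit (R := R) y = 1) : y = 1 := by
  obtain ⟨r, hr⟩ := hB y
  have hpow : ∀ n : ℕ, y ^ (n + 1) = y := by
    intro n
    induction n with
    | zero => simp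
    | succ n ih => rw [pow_succ, ih, hy]
  have hyp : y ^ p = y := by
    have hp1 : 1 ≤ p := (Fact.out : p.Prime).one_lt.le
    have := hpow (p - 1)
    rwa [Nat.sub_add_cancel hp1] at this
  rw [hyp] at hr
  have : r = 1 := by
    have h2 := congrArg (counit (R := R)) hr
    rw [Bialgebra.counit_algebraMap, hc] at h2
    exact h2.symm
  rw [hr, this, map_one]

theorem constGrp_not_iso {R : Type u} [CommRing R] {B : Type u} [CommRing B] [Bialgebra R B]
    (p : ℕ) [Fact p.Prime] [CharP R p]
    (hB : ∀ y : B, ∃ r : R, y ^ p = algebraMap R B r) :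
    IsEmpty (ConstGrp.F R (Multiplicative (ZMod p)) ≃ₐc[R] B) := by
  classical
  haveI : Nontrivial R := CharP.nontrivial_of_char_ne_one (Fact.out : p.Prime).one_lt.ne'
  haveI : Fact (1 < p) := ⟨(Fact.out : p.Prime).one_lt⟩
  refine ⟨fun φ => ?_⟩
  set e : ConstGrp.F R (Multiplicative (ZMod p)) := ConstGrp.e R 1 with he_def
  have he : e * e = e := by rw [he_def, ConstGrp.e_mul_e, if_pos rfl]
  have hce : counit (R := R) e = 1 := by
    rw [ConstGrp.counit_apply, he_def, ConstGrp.e_apply_self]
  have hne : e ≠ 1 := by
    intro h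
    have h1 := congrArg (fun f : ConstGrp.F R (Multiplicative (ZMod p)) => f (Multiplicative.ofAdd 1)) h
    rw [he_def, ConstGrp.e_apply_of_ne, ConstGrp.one_apply] at h1
    · exact zero_ne_one h1
    · intro h2
      have : (1 : ZMod p) = 0 := by
        have := congrArg Multiplicative.toAdd h2
        simpa using this
      exact one_ne_zero this
  have hy : φ e * φ e = φ e := by rw [← map_mul, he]
  have hcy : counit (R := R) (φ e) = 1 := by
    rw [CoalgHomClass.counit_comp_apply, hce]
  have := idem_eq_one_of_pow_mem p hB (φ e) hy hcy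
  apply hne
  have h2 : φ e = φ 1 := by rw [this, map_one]
  exact φ.toEquiv.injective h2

end Groth.Agent.Lib.Helper24
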