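import Mathlib

/-!
# Elementwise criteria for mono/epi of homology maps of complexes of modules (helper24)
-/

open CategoryTheory

namespace Groth.Agent.Lib.Helper24.CxH

universe v u w

variable {R : Type u} [Ring R]

section SC
variable {S₁ S₂ : ShortComplex (ModuleCat.{v} R)} (φ : S₁ ⟶ S₂)

lemma π_eq_zero_iff (S : ShortComplex (ModuleCat.{v} R)) (y : LinearMap.ker S.g.hom) :
    S.moduleCatLeftHomologyData.π.hom y = 0 ↔ ∃ z, S.f.hom z = y.1 := by
  change (Submodule.Quotient.mk y : (LinearMap.ker S.g.hom) ⧸ _) = 0 ↔ _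
  rw [Submodule.Quotient.mk_eq_zero]
  constructor
  · rintro ⟨z, hz⟩
    exact ⟨z, congrArg Subtype.val hz⟩
  · rintro ⟨z, hz⟩
    exact ⟨z, Subtype.ext hz⟩

lemma π_surjective (S : ShortComplex (ModuleCat.{v} R)) :
    Function.Surjective S.moduleCatLeftHomologyData.π.hom :=
  Submodule.mkQ_surjective _

lemma γ_spec (γ : ShortComplex.LeftHomologyMapData φ S₁.moduleCatLeftHomologyData
      S₂.moduleCatLeftHomologyData) (x : LinearMap.ker S₁.g.hom) :
    ∃ hx : φ.τ₂.hom x.1 ∈ LinearMap.ker S₂.g.hom,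
      γ.φH.hom (S₁.moduleCatLeftHomologyData.π.hom x) =
        S₂.moduleCatLeftHomologyData.π.hom ⟨φ.τ₂.hom x.1, hx⟩ := by
  have h1 := congrArg (fun m => m.hom x) γ.commπ
  have h2 := congrArg (fun m => m.hom x) γ.commi
  simp only [ModuleCat.hom_comp, LinearMap.comp_apply] at h1 h2
  have h2' : (γ.φK.hom x).1 = φ.τ₂.hom x.1 := h2
  refine ⟨?_, ?_⟩
  · rw [← h2']
    exact (γ.φK.hom x).2
  · have h3 : γ.φK.hom x = ⟨φ.τ₂.hom x.1, by rw [← h2']; exact (γ.φK.hom x).2⟩ := Subtype.ext h2'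
    rw [h1]; exact congrArg _ h3

lemma sc_mono_iff : Mono (ShortComplex.homologyMap φ) ↔
    ∀ x : S₁.X₂, S₁.g.hom x = 0 → (∃ y, S₂.f.hom y = φ.τ₂.hom x) → ∃ z, S₁.f.hom z = x := by
  let γ : ShortComplex.LeftHomologyMapData φ S₁.moduleCatLeftHomologyData
      S₂.moduleCatLeftHomologyData := default
  rw [γ.homologyMap_eq, mono_comp_iff_of_isIso, mono_comp_iff_of_mono,
    ModuleCat.mono_iff_injective]
  change Function.Injective γ.φH.hom ↔ _
  rw [injective_iff_map_eq_zero]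
  constructor
  · intro h x hx hy
    obtain ⟨hx', hφ⟩ := γ_spec φ γ ⟨x, hx⟩
    have h0 := h _ (by rw [hφ, π_eq_zero_iff]; exact hy)
    exact (π_eq_zero_iff S₁ ⟨x, hx⟩).1 h0
  · intro h w hw
    obtain ⟨⟨x, hx⟩, rfl⟩ := π_surjective S₁ w
    obtain ⟨hx', hφ⟩ := γ_spec φ γ ⟨x, hx⟩
    rw [hφ, π_eq_zero_iff] at hw
    exact (π_eq_zero_iff S₁ ⟨x, hx⟩).2 (h x hx hw)

lemma sc_epi_iff : Epi (ShortComplex.homologyMap φ) ↔
    ∀ y : S₂.X₂, S₂.g.hom y = 0 →
      ∃ x : S₁.X₂, S₁.g.hom x = 0 ∧ ∃ z, S₂.f.hom z = φ.τ₂.hom x - y := by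
  let γ : ShortComplex.LeftHomologyMapData φ S₁.moduleCatLeftHomologyData
      S₂.moduleCatLeftHomologyData := default
  rw [γ.homologyMap_eq, epi_comp_iff_of_epi, epi_comp_iff_of_isIso, ModuleCat.epi_iff_surjective]
  change Function.Surjective γ.φH.hom ↔ _
  constructor
  · intro h y hy
    obtain ⟨w, hw⟩ := h (S₂.moduleCatLeftHomologyData.π.hom ⟨y, hy⟩)
    obtain ⟨⟨x, hx⟩, rfl⟩ := π_surjective S₁ w
    obtain ⟨hx', hφ⟩ := γ_spec φ γ ⟨x, hx⟩
    rw [hφ, ← sub_eq_zero, ← map_sub, π_eq_zero_iff] at hw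
    exact ⟨x, hx, hw⟩
  · intro h w
    obtain ⟨⟨y, hy⟩, rfl⟩ := π_surjective S₂ w
    obtain ⟨x, hx, hz⟩ := h y hy
    refine ⟨S₁.moduleCatLeftHomologyData.π.hom ⟨x, hx⟩, ?_⟩
    obtain ⟨hx', hφ⟩ := γ_spec φ γ ⟨x, hx⟩
    rw [hφ, ← sub_eq_zero, ← map_sub, π_eq_zero_iff]
    exact hz

end SC

section HC
variable {ι : Type w} {c : ComplexShape ι}

lemma mono_homologyMap_iff {K L : HomologicalComplex (ModuleCat.{v} R) c} (f : K ⟶ L) (i j k : ι)
    (hi : c.prev j = i) (hk : c.next j = k) :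
    Mono (HomologicalComplex.homologyMap f j) ↔
      ∀ x : K.X j, (K.d j k).hom x = 0 → (∃ y : L.X i, (L.d i j).hom y = (f.f j).hom x) →
        ∃ z : K.X i, (K.d i j).hom z = x := by
  subst hi hk
  exact sc_mono_iff ((HomologicalComplex.shortComplexFunctor _ _ j).map f)

lemma epi_homologyMap_iff {K L : HomologicalComplex (ModuleCat.{v} R) c} (f : K ⟶ L) (i j k : ι)
    (hi : c.prev j = i) (hk : c.next j = k) :
    Epi (HomologicalComplex.homologyMap f j) ↔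
      ∀ y : L.X j, (L.d j k).hom y = 0 →
        ∃ x : K.X j, (K.d j k).hom x = 0 ∧ ∃ z : L.X i, (L.d i j).hom z = (f.f j).hom x - y := by
  subst hi hk
  exact sc_epi_iff ((HomologicalComplex.shortComplexFunctor _ _ j).map f)

end HC

end Groth.Agent.Lib.Helper24.CxH
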