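import Mathlib

/-!
# Acyclic bounded-below complexes of projective modules are contractible (helper24)

For `K : ChainComplex (ModuleCat R) ℕ` with projective terms which is exact (elementwise:
`d₁₀` surjective and `ker d_{n+1,n} ⊆ range d_{n+2,n+1}`), we construct a contracting homotopy
`s n : K.X n → K.X (n+1)` with `d s + s d = id`.
-/

open CategoryTheory

namespace Groth.Agent.Lib.Helper24.SplitCx

universe v u

variable {R : Type u} [Ring R]

section Basic
variable (K : ChainComplex (ModuleCat.{v} R) ℕ)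

lemma dd_apply (i j k : ℕ) (x : K.X i) : (K.d j k).hom ((K.d i j).hom x) = 0 := by
  rw [← LinearMap.comp_apply, ← ModuleCat.hom_comp, K.d_comp_d]
  rfl

lemma dd_comp (i j k : ℕ) : (K.d j k).hom ∘ₗ (K.d i j).hom = 0 := by
  ext x
  exact dd_apply K i j k x

lemma d_zero_zero : K.d 0 0 = 0 := K.shape 0 0 (by simp)

lemma surjective_d_one_zero (h : K.ExactAt 0) : Function.Surjective (K.d 1 0).hom := by
  rw [HomologicalComplex.exactAt_iff' K 1 0 0 (by simp) (by simp),
    ShortComplex.moduleCat_exact_iff] at h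
  intro x
  obtain ⟨y, hy⟩ := h x (by show (K.d 0 0).hom x = 0; rw [d_zero_zero]; rfl)
  exact ⟨y, hy⟩

lemma exists_of_d_eq_zero (n : ℕ) (h : K.ExactAt (n + 1)) (x : K.X (n + 1))
    (hx : (K.d (n + 1) n).hom x = 0) : ∃ y, (K.d (n + 2) (n + 1)).hom y = x := by
  rw [HomologicalComplex.exactAt_iff' K (n + 2) (n + 1) n (by simp) (by simp),
    ShortComplex.moduleCat_exact_iff] at h
  obtain ⟨y, hy⟩ := h x hx
  exact ⟨y, hy⟩

end Basic

section Contraction
variable (K : ChainComplex (ModuleCat.{v} R) ℕ)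

/-- one step of the construction of a contracting homotopy -/
lemma step [∀ q, Module.Projective R (K.X q)]
    (es : ∀ n (x : K.X (n + 1)), (K.d (n + 1) n).hom x = 0 → ∃ y, (K.d (n + 2) (n + 1)).hom y = x)
    (n : ℕ) (t : K.X n →ₗ[R] K.X (n + 1))
    (ht : (K.d (n + 1) n).hom ∘ₗ t ∘ₗ (K.d (n + 1) n).hom = (K.d (n + 1) n).hom) :
    ∃ t' : K.X (n + 1) →ₗ[R] K.X (n + 2),
      (K.d (n + 2) (n + 1)).hom ∘ₗ t' = LinearMap.id - t ∘ₗ (K.d (n + 1) n).hom := by
  set d1 := (K.d (n + 1) n).hom
  set d2 := (K.d (n + 2) (n + 1)).hom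
  set φ : K.X (n + 1) →ₗ[R] K.X (n + 1) := LinearMap.id - t ∘ₗ d1 with hφ
  have hφr : ∀ x, φ x ∈ LinearMap.range d2 := by
    intro x
    have h0 : d1 (φ x) = 0 := by
      have := congrArg (fun g => g x) ht
      simp only [LinearMap.comp_apply] at this
      simp only [hφ, LinearMap.sub_apply, LinearMap.id_apply, LinearMap.comp_apply, map_sub, this,
        sub_self]
    obtain ⟨y, hy⟩ := es n (φ x) h0
    exact ⟨y, hy⟩
  let φ' : K.X (n + 1) →ₗ[R] LinearMap.range d2 := LinearMap.codRestrict _ φ hφr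
  let d2' : K.X (n + 2) →ₗ[R] LinearMap.range d2 := LinearMap.rangeRestrict d2
  have hd2' : Function.Surjective d2' := LinearMap.surjective_rangeRestrict d2
  obtain ⟨t', ht'⟩ := Module.projective_lifting_property d2' φ' hd2'
  refine ⟨t', ?_⟩
  ext x
  have := congrArg (fun g => (g x : K.X (n + 1))) ht'
  simpa [d2', φ'] using this

/-- the state of the recursion: a map `t` with `d t d = d` -/
def State (n : ℕ) : Type v :=
  {t : K.X n →ₗ[R] K.X (n + 1) // (K.d (n + 1) n).hom ∘ₗ t ∘ₗ (K.d (n + 1) n).hom = (K.d (n + 1) n).hom}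

variable [∀ q, Module.Projective R (K.X q)]
  (e0 : Function.Surjective (K.d 1 0).hom)
  (es : ∀ n (x : K.X (n + 1)), (K.d (n + 1) n).hom x = 0 → ∃ y, (K.d (n + 2) (n + 1)).hom y = x)

/-- initial value -/
noncomputable def s0 : K.X 0 →ₗ[R] K.X 1 :=
  Classical.choose (Module.projective_lifting_property (K.d 1 0).hom LinearMap.id e0)

lemma s0_spec : (K.d 1 0).hom ∘ₗ s0 K e0 = LinearMap.id :=
  Classical.choose_spec (Module.projective_lifting_property (K.d 1 0).hom LinearMap.id e0)

/-- the recursion -/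
noncomputable def seq : ∀ n, State K n
  | 0 => ⟨s0 K e0, by rw [← LinearMap.comp_assoc, s0_spec]; rfl⟩
  | n + 1 =>
    ⟨Classical.choose (step K es n (seq n).1 (seq n).2), by
      have h := Classical.choose_spec (step K es n (seq n).1 (seq n).2)
      rw [← LinearMap.comp_assoc, h, LinearMap.sub_comp, LinearMap.id_comp, LinearMap.comp_assoc,
        dd_comp, LinearMap.comp_zero, sub_zero]⟩

/-- the contracting homotopy -/
noncomputable def contr (n : ℕ) : K.X n →ₗ[R] K.X (n + 1) := (seq K e0 es n).1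

lemma contr_zero : (K.d 1 0).hom ∘ₗ contr K e0 es 0 = LinearMap.id := s0_spec K e0

lemma contr_succ (n : ℕ) :
    (K.d (n + 2) (n + 1)).hom ∘ₗ contr K e0 es (n + 1) + contr K e0 es n ∘ₗ (K.d (n + 1) n).hom =
      LinearMap.id := by
  have h := Classical.choose_spec (step K es n (seq K e0 es n).1 (seq K e0 es n).2)
  show (K.d (n + 2) (n + 1)).hom ∘ₗ
      Classical.choose (step K es n (seq K e0 es n).1 (seq K e0 es n).2) + _ = _
  rw [h]
  simp [contr]

lemma contr_zero_apply (x : K.X 0) : (K.d 1 0).hom (contr K e0 es 0 x) = x := by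
  have := congrArg (fun g => g x) (contr_zero K e0 es)
  simpa using this

lemma contr_succ_apply (n : ℕ) (x : K.X (n + 1)) :
    (K.d (n + 1 + 1) (n + 1)).hom (contr K e0 es (n + 1) x) + contr K e0 es n ((K.d (n + 1) n).hom x) =
      x := by
  have := congrArg (fun g => g x) (contr_succ K e0 es n)
  simpa using this

lemma contr_succ_apply' (n : ℕ) (x : K.X (n + 1)) :
    contr K e0 es n ((K.d (n + 1) n).hom x) + (K.d (n + 1 + 1) (n + 1)).hom (contr K e0 es (n + 1) x) =
      x := by
  exact (add_comm _ _).trans (contr_succ_apply K e0 es n x)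

end Contraction


section Sect
variable {A A'' : ChainComplex (ModuleCat.{v} R) ℕ}

/-- the components of the section `h = d σ s + σ s d` -/
noncomputable def hlin (s : ∀ n, A''.X n →ₗ[R] A''.X (n + 1)) (σ : ∀ n, A''.X n →ₗ[R] A.X n) :
    ∀ n, A''.X n →ₗ[R] A.X n
  | 0 => (A.d 1 0).hom ∘ₗ σ 1 ∘ₗ s 0
  | m + 1 => (A.d (m + 1 + 1) (m + 1)).hom ∘ₗ σ (m + 1 + 1) ∘ₗ s (m + 1) +
      σ (m + 1) ∘ₗ s m ∘ₗ (A''.d (m + 1) m).hom

lemma hlin_comm (s : ∀ n, A''.X n →ₗ[R] A''.X (n + 1)) (σ : ∀ n, A''.X n →ₗ[R] A.X n)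
    (j : ℕ) (x : A''.X (j + 1)) :
    (A.d (j + 1) j).hom (hlin s σ (j + 1) x) = hlin s σ j ((A''.d (j + 1) j).hom x) := by
  cases j with
  | zero =>
    simp only [hlin, LinearMap.add_apply, LinearMap.comp_apply, map_add, dd_apply, zero_add]
  | succ m =>
    simp only [hlin, LinearMap.add_apply, LinearMap.comp_apply, map_add, dd_apply, zero_add,
      map_zero, add_zero]

/-- the section as a chain map -/
noncomputable def hcx (s : ∀ n, A''.X n →ₗ[R] A''.X (n + 1)) (σ : ∀ n, A''.X n →ₗ[R] A.X n) :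
    A'' ⟶ A where
  f n := ModuleCat.ofHom (hlin s σ n)
  comm' := by
    intro i j hij
    obtain rfl : j + 1 = i := hij
    ext x
    simpa using hlin_comm s σ j x

lemma hcx_f_apply (s : ∀ n, A''.X n →ₗ[R] A''.X (n + 1)) (σ : ∀ n, A''.X n →ₗ[R] A.X n) (n : ℕ)
    (x : A''.X n) : ((hcx s σ).f n).hom x = hlin s σ n x := rfl

lemma chain_apply {C D : ChainComplex (ModuleCat.{v} R) ℕ} (φ : C ⟶ D) (i j : ℕ) (y : C.X i) :
    (φ.f j).hom ((C.d i j).hom y) = (D.d i j).hom ((φ.f i).hom y) := by
  rw [← LinearMap.comp_apply, ← ModuleCat.hom_comp, ← φ.comm i j, ModuleCat.hom_comp,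
    LinearMap.comp_apply]

lemma p_hlin (p : A ⟶ A'') (s : ∀ n, A''.X n →ₗ[R] A''.X (n + 1)) (σ : ∀ n, A''.X n →ₗ[R] A.X n)
    (hσ : ∀ n x, (p.f n).hom (σ n x) = x)
    (h0 : ∀ x, (A''.d 1 0).hom (s 0 x) = x)
    (hs : ∀ n x, (A''.d (n + 1 + 1) (n + 1)).hom (s (n + 1) x) + s n ((A''.d (n + 1) n).hom x) = x)
    (n : ℕ) (x : A''.X n) : (p.f n).hom (hlin s σ n x) = x := by
  cases n with
  | zero =>
    simp only [hlin, LinearMap.comp_apply]
    rw [chain_apply, hσ, h0]
  | succ m =>
    simp only [hlin, LinearMap.add_apply, LinearMap.comp_apply, map_add]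
    rw [chain_apply, hσ, hσ, hs]

/-- a degreewise short exact sequence `A' → A → A''` with `A'' ` degreewise projective and `f` a
quasi-isomorphism has a chain-map section `h : A'' ⟶ A` of `p`. -/
theorem exists_section {A' : ChainComplex (ModuleCat.{v} R) ℕ} (f : A' ⟶ A) (p : A ⟶ A'')
    [∀ q, Module.Projective R (A''.X q)]
    (hf : ∀ q, Function.Injective (f.f q).hom) (hp : ∀ q, Function.Surjective (p.f q).hom)
    (hfp : ∀ q, Function.Exact (f.f q).hom (p.f q).hom) [QuasiIso f] :
    ∃ h : A'' ⟶ A, h ≫ p = 𝟙 A'' := by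
  have hzero : f ≫ p = 0 := by
    ext q x
    simpa using (hfp q).apply_apply_eq_zero x
  let S : ShortComplex (ChainComplex (ModuleCat.{v} R) ℕ) := ShortComplex.mk f p hzero
  have hS : S.ShortExact := HomologicalComplex.shortExact_of_degreewise_shortExact S (fun i =>
    ModuleCat.shortComplex_shortExact _ (hfp i) (hf i) (hp i))
  have hac : A''.Acyclic := hS.acyclic_X₃ (inferInstanceAs (QuasiIso f))
  have e0 := surjective_d_one_zero A'' (hac 0)
  have es : ∀ n (x : A''.X (n + 1)), (A''.d (n + 1) n).hom x = 0 →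
      ∃ y, (A''.d (n + 2) (n + 1)).hom y = x :=
    fun n x hx => exists_of_d_eq_zero A'' n (hac (n + 1)) x hx
  have hσ : ∀ n, ∃ σ : A''.X n →ₗ[R] A.X n, (p.f n).hom ∘ₗ σ = LinearMap.id := fun n =>
    Module.projective_lifting_property (p.f n).hom LinearMap.id (hp n)
  choose σ hσ using hσ
  refine ⟨hcx (contr A'' e0 es) σ, ?_⟩
  ext n x
  simp only [HomologicalComplex.comp_f, HomologicalComplex.id_f, ModuleCat.hom_comp,
    LinearMap.comp_apply, ModuleCat.hom_id, LinearMap.id_apply]
  rw [hcx_f_apply]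
  refine p_hlin p _ σ (fun n x => ?_) (contr_zero_apply A'' e0 es) (contr_succ_apply A'' e0 es) n x
  have := congrArg (fun g => g x) (hσ n)
  simpa using this

end Sect


section Coker
variable {A' A : ChainComplex (ModuleCat.{v} R) ℕ} (f : A' ⟶ A)

lemma range_le_comap (i j : ℕ) :
    LinearMap.range (f.f i).hom ≤ (LinearMap.range (f.f j).hom).comap (A.d i j).hom := by
  rintro _ ⟨x, rfl⟩
  exact ⟨(A'.d i j).hom x, chain_apply f i j x⟩

/-- the degreewise quotient complex `A / f(A')` -/
noncomputable def cokerCx : ChainComplex (ModuleCat.{v} R) ℕ where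
  X q := ModuleCat.of R (A.X q ⧸ LinearMap.range (f.f q).hom)
  d i j := ModuleCat.ofHom (Submodule.mapQ _ _ (A.d i j).hom (range_le_comap f i j))
  shape i j hij := by
    ext x
    simp [A.shape i j hij]
  d_comp_d' i j k _ _ := by
    ext x
    simp [dd_apply]

/-- the projection onto the quotient complex -/
noncomputable def cokerπ : A ⟶ cokerCx f where
  f q := ModuleCat.ofHom (LinearMap.range (f.f q).hom).mkQ
  comm' i j _ := by
    ext x
    rfl

lemma cokerπ_f_apply (q : ℕ) (x : A.X q) :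
    ((cokerπ f).f q).hom x = (Submodule.Quotient.mk x : A.X q ⧸ LinearMap.range (f.f q).hom) := rfl

lemma cokerπ_surjective (q : ℕ) : Function.Surjective ((cokerπ f).f q).hom :=
  Submodule.mkQ_surjective _

lemma cokerπ_exact (q : ℕ) : Function.Exact (f.f q).hom ((cokerπ f).f q).hom := by
  intro x
  rw [cokerπ_f_apply]
  change (Submodule.Quotient.mk x : A.X q ⧸ LinearMap.range (f.f q).hom) = 0 ↔ _
  rw [Submodule.Quotient.mk_eq_zero]
  exact LinearMap.mem_range

lemma cokerπ_f_f (q : ℕ) (x : A'.X q) : ((cokerπ f).f q).hom ((f.f q).hom x) = 0 :=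
  (cokerπ_exact f q).apply_apply_eq_zero x

end Coker

/-- acyclicity of the third term of a degreewise short exact sequence whose first map is a
quasi-isomorphism -/
lemma acyclic_of_shortExact {A' A A'' : ChainComplex (ModuleCat.{v} R) ℕ} (f : A' ⟶ A)
    (p : A ⟶ A'')
    (hf : ∀ q, Function.Injective (f.f q).hom) (hp : ∀ q, Function.Surjective (p.f q).hom)
    (hfp : ∀ q, Function.Exact (f.f q).hom (p.f q).hom) [QuasiIso f] : A''.Acyclic := by
  have hzero : f ≫ p = 0 := by
    ext q x
    simpa using (hfp q).apply_apply_eq_zero x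
  let S : ShortComplex (ChainComplex (ModuleCat.{v} R) ℕ) := ShortComplex.mk f p hzero
  have hS : S.ShortExact := HomologicalComplex.shortExact_of_degreewise_shortExact S (fun i =>
    ModuleCat.shortComplex_shortExact _ (hfp i) (hf i) (hp i))
  exact hS.acyclic_X₃ (inferInstanceAs (QuasiIso f))

section Retraction
variable {A' A : ChainComplex (ModuleCat.{v} R) ℕ}

/-- a degreewise injective quasi-isomorphism with degreewise projective cokernels has a chain-map
retraction -/
theorem exists_retraction (f : A' ⟶ A) [∀ q, Module.Projective R ((cokerCx f).X q)]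
    (hf : ∀ q, Function.Injective (f.f q).hom) [QuasiIso f] :
    ∃ g : A ⟶ A', f ≫ g = 𝟙 A' := by
  obtain ⟨h, hh⟩ := exists_section f (cokerπ f) hf (cokerπ_surjective f) (cokerπ_exact f)
  have hph : ∀ q x, ((cokerπ f).f q).hom ((h.f q).hom x) = x := by
    intro q x
    have := congrArg (fun φ => (φ.f q).hom x) hh
    simpa using this
  have hmem : ∀ q (a : A.X q),
      ((LinearMap.id : A.X q →ₗ[R] A.X q) - (h.f q).hom ∘ₗ ((cokerπ f).f q).hom) a ∈
        LinearMap.range (f.f q).hom := by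
    intro q a
    obtain ⟨y, hy⟩ := ((cokerπ_exact f q) (a - (h.f q).hom (((cokerπ f).f q).hom a))).1 (by
      rw [map_sub, hph, sub_self])
    exact ⟨y, hy⟩
  let r : ∀ q, A.X q →ₗ[R] LinearMap.range (f.f q).hom := fun q =>
    LinearMap.codRestrict _ ((LinearMap.id : A.X q →ₗ[R] A.X q) - (h.f q).hom ∘ₗ ((cokerπ f).f q).hom)
      (hmem q)
  let gl : ∀ q, A.X q →ₗ[R] A'.X q := fun q =>
    (LinearEquiv.ofInjective (f.f q).hom (hf q)).symm.toLinearMap ∘ₗ r q
  have hfg : ∀ q a, (f.f q).hom (gl q a) = a - (h.f q).hom (((cokerπ f).f q).hom a) := by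
    intro q a
    have := LinearEquiv.ofInjective_symm_apply (f := (f.f q).hom) (h := hf q) (r q a)
    simp only [gl, LinearMap.comp_apply, LinearEquiv.coe_coe]
    rw [this]
    simp [r]
  refine ⟨{ f := fun q => ModuleCat.ofHom (gl q), comm' := ?_ }, ?_⟩
  · intro i j _
    ext a
    apply hf j
    simp only [ModuleCat.hom_comp, LinearMap.comp_apply, ModuleCat.hom_ofHom]
    rw [chain_apply f i j (gl i a), hfg, hfg, map_sub, chain_apply (cokerπ f), chain_apply h]
  · ext q a'
    apply hf q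
    simp only [HomologicalComplex.comp_f, HomologicalComplex.id_f, ModuleCat.hom_comp,
      LinearMap.comp_apply, ModuleCat.hom_ofHom, ModuleCat.hom_id, LinearMap.id_apply]
    rw [hfg, cokerπ_f_f, map_zero, sub_zero]

/-- two retractions of a degreewise injective quasi-isomorphism with degreewise projective
cokernels are homotopic, by a homotopy vanishing on the image -/
theorem exists_homotopy (f : A' ⟶ A) [∀ q, Module.Projective R ((cokerCx f).X q)]
    (hf : ∀ q, Function.Injective (f.f q).hom) [QuasiIso f]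
    (g₁ g₂ : A ⟶ A') (h₁ : f ≫ g₁ = 𝟙 A') (h₂ : f ≫ g₂ = 𝟙 A') :
    ∃ H : Homotopy g₁ g₂, ∀ i j : ℕ, f.f i ≫ H.hom i j = 0 := by
  have hac := acyclic_of_shortExact f (cokerπ f) hf (cokerπ_surjective f) (cokerπ_exact f)
  have e0 := surjective_d_one_zero (cokerCx f) (hac 0)
  have es : ∀ n (x : (cokerCx f).X (n + 1)), ((cokerCx f).d (n + 1) n).hom x = 0 →
      ∃ y, ((cokerCx f).d (n + 2) (n + 1)).hom y = x :=
    fun n x hx => exists_of_d_eq_zero (cokerCx f) n (hac (n + 1)) x hx
  set s := contr (cokerCx f) e0 es with hs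
  have hg : ∀ (g : A ⟶ A'), f ≫ g = 𝟙 A' → ∀ q (a' : A'.X q), (g.f q).hom ((f.f q).hom a') = a' := by
    intro g hg q a'
    have := congrArg (fun φ => (φ.f q).hom a') hg
    simpa using this
  let δ : ∀ q, A.X q →ₗ[R] A'.X q := fun q => (g₁.f q).hom - (g₂.f q).hom
  have hδ : ∀ q, LinearMap.range (f.f q).hom ≤ LinearMap.ker (δ q) := by
    rintro q _ ⟨a', rfl⟩
    simp [δ, hg g₁ h₁, hg g₂ h₂]
  let φ : ∀ q, (cokerCx f).X q →ₗ[R] A'.X q := fun q => (LinearMap.range (f.f q).hom).liftQ (δ q) (hδ q)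
  have hφ : ∀ q (a : A.X q), φ q (((cokerπ f).f q).hom a) = δ q a := fun q a => by
    rw [cokerπ_f_apply]
    exact Submodule.liftQ_apply _ _ _
  have hφd : ∀ i j (y : (cokerCx f).X i), (A'.d i j).hom (φ i y) = φ j (((cokerCx f).d i j).hom y) := by
    intro i j y
    obtain ⟨a, rfl⟩ := cokerπ_surjective f i y
    rw [hφ, ← chain_apply (cokerπ f), hφ]
    simp only [δ, LinearMap.sub_apply, map_sub, chain_apply g₁, chain_apply g₂]
  let Hl : ∀ i, A.X i →ₗ[R] A'.X (i + 1) := fun i => φ (i + 1) ∘ₗ s i ∘ₗ ((cokerπ f).f i).hom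
  have hHl : ∀ i a, Hl i a = φ (i + 1) (s i (((cokerπ f).f i).hom a)) := fun i a => rfl
  let H : Homotopy g₁ g₂ :=
    { hom := fun i j => if hij : i + 1 = j then
          ModuleCat.ofHom (Hl i) ≫ eqToHom (congrArg A'.X hij) else 0
      zero := by
        intro i j hij
        have : ¬ (i + 1 = j) := hij
        simp [this]
      comm := by
        intro i
        cases i with
        | zero =>
          rw [Homotopy.dNext_zero_chainComplex, Homotopy.prevD_chainComplex]
          ext a
          simp only [dite_true, eqToHom_refl, Category.comp_id, zero_add,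
            ModuleCat.hom_add, LinearMap.add_apply, ModuleCat.hom_comp, LinearMap.comp_apply,
            ModuleCat.hom_ofHom]
          rw [hHl, hφd, contr_zero_apply, hφ]
          simp [δ]
        | succ n =>
          rw [Homotopy.dNext_succ_chainComplex, Homotopy.prevD_chainComplex]
          ext a
          simp only [dite_true, eqToHom_refl, Category.comp_id,
            ModuleCat.hom_add, LinearMap.add_apply, ModuleCat.hom_comp, LinearMap.comp_apply,
            ModuleCat.hom_ofHom]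
          rw [hHl, hHl, hφd, chain_apply (cokerπ f), ← map_add, contr_succ_apply', hφ]
          simp [δ] }
  refine ⟨H, fun i j => ?_⟩
  by_cases hij : i + 1 = j
  · subst hij
    ext a'
    simp [H, hHl, cokerπ_f_f]
  · simp [H, hij]

end Retraction

end Groth.Agent.Lib.Helper24.SplitCx
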