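import Mathlib

/-!
# Helper lemmas for lifting direct summands along square-zero thickenings (helper24)
-/

open TensorProduct

namespace Groth.Agent.Lib.Helper24.Torsor

variable {R : Type*} [CommRing R]

section Split
variable {M : Type*} [AddCommGroup M] [Module R M]

/-- a retraction onto a submodule with projective quotient -/
lemma exists_retraction (N : Submodule R M) [Module.Projective R (M ⧸ N)] :
    ∃ ρ : M →ₗ[R] N, ∀ x : N, ρ x = x := by
  obtain ⟨s, hs⟩ := Module.projective_lifting_property N.mkQ LinearMap.id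
    (Submodule.mkQ_surjective N)
  have hs' : ∀ y, N.mkQ (s y) = y := fun y => by
    have := congrArg (fun φ => φ y) hs
    simpa using this
  have hmem : ∀ x : M, ((LinearMap.id : M →ₗ[R] M) - s ∘ₗ N.mkQ) x ∈ N := by
    intro x
    rw [← Submodule.Quotient.mk_eq_zero]
    simp only [LinearMap.sub_apply, LinearMap.id_apply, LinearMap.comp_apply]
    rw [Submodule.Quotient.mk_sub, ← Submodule.mkQ_apply N (s _), hs', Submodule.mkQ_apply,
      sub_self]
  refine ⟨LinearMap.codRestrict N ((LinearMap.id : M →ₗ[R] M) - s ∘ₗ N.mkQ) hmem, fun x => ?_⟩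
  apply Subtype.ext
  simp only [LinearMap.codRestrict_apply, LinearMap.sub_apply, LinearMap.id_apply,
    LinearMap.comp_apply, Submodule.mkQ_apply]
  rw [(Submodule.Quotient.mk_eq_zero N).2 x.2, map_zero, sub_zero]

lemma inf_smul_le (I : Ideal R) (N : Submodule R M) [Module.Projective R (M ⧸ N)] :
    N ⊓ I • (⊤ : Submodule R M) ≤ I • N := by
  obtain ⟨ρ, hρ⟩ := exists_retraction N
  rintro w ⟨hwN, hwI⟩
  have h1 : ρ w ∈ I • (⊤ : Submodule R N) := by
    have h0 : ρ w ∈ (I • (⊤ : Submodule R M)).map ρ := Submodule.mem_map_of_mem hwI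
    rw [Submodule.map_smul''] at h0
    exact Submodule.smul_mono le_rfl le_top h0
  have h2 : ((ρ w : N) : M) ∈ (I • (⊤ : Submodule R N)).map N.subtype :=
    Submodule.mem_map_of_mem h1
  rw [Submodule.map_smul'', Submodule.map_subtype_top] at h2
  have h3 : ((ρ w : N) : M) = w := by rw [hρ ⟨w, hwN⟩]
  rwa [h3] at h2

/-- a submodule with projective quotient of a projective module is projective -/
lemma projective_of_quot (N : Submodule R M) [Module.Projective R M]
    [Module.Projective R (M ⧸ N)] : Module.Projective R N := by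
  obtain ⟨ρ, hρ⟩ := exists_retraction N
  exact Module.Projective.of_split N.subtype ρ (LinearMap.ext fun x => hρ x)

lemma map_smul_top_le {M' : Type*} [AddCommGroup M'] [Module R M'] (I : Ideal R)
    (φ : M →ₗ[R] M') {x : M} (hx : x ∈ I • (⊤ : Submodule R M)) :
    φ x ∈ I • (⊤ : Submodule R M') := by
  have h0 : φ x ∈ (I • (⊤ : Submodule R M)).map φ := Submodule.mem_map_of_mem hx
  rw [Submodule.map_smul''] at h0
  exact Submodule.smul_mono le_rfl le_top h0

end Split

section BC
variable {M : Type*} [AddCommGroup M] [Module R M] (I : Ideal R)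

lemma one_tmul_eq_zero {x : M} (hx : x ∈ I • (⊤ : Submodule R M)) :
    (1 : R ⧸ I) ⊗ₜ[R] x = 0 := by
  refine Submodule.smul_induction_on hx (fun r hr m _ => ?_) (fun x y hx hy => ?_)
  · rw [← smul_tmul, Algebra.smul_def, mul_one]
    rw [Ideal.Quotient.algebraMap_eq, Ideal.Quotient.eq_zero_iff_mem.2 hr, zero_tmul]
  · rw [tmul_add, hx, hy, add_zero]

lemma mem_sup_of_one_tmul_mem (p : Submodule R M) {x : M}
    (hx : (1 : R ⧸ I) ⊗ₜ[R] x ∈ p.baseChange (R ⧸ I)) : x ∈ p ⊔ I • (⊤ : Submodule R M) := by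
  set Φ := quotTensorEquivQuotSMul M I
  obtain ⟨z, hz⟩ := hx
  have key : ∀ z : (R ⧸ I) ⊗[R] p, Φ (p.subtype.baseChange (R ⧸ I) z) ∈
      p.map (I • (⊤ : Submodule R M)).mkQ := by
    intro z
    induction z using TensorProduct.induction_on with
    | zero => simp
    | tmul r m =>
      obtain ⟨r, rfl⟩ := Ideal.Quotient.mk_surjective r
      rw [LinearMap.baseChange_tmul, Submodule.subtype_apply, quotTensorEquivQuotSMul_mk_tmul]
      exact ⟨r • (m : M), p.smul_mem r m.2, rfl⟩
    | add a b ha hb =>
      rw [map_add, map_add]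
      exact Submodule.add_mem _ ha hb
  have h1 := key z
  rw [hz, quotTensorEquivQuotSMul_mk_one_tmul] at h1
  obtain ⟨m, hm, hmx⟩ := h1
  rw [Submodule.mkQ_apply, Submodule.Quotient.eq] at hmx
  have : x = m + (x - m) := by abel
  rw [this]
  exact Submodule.add_mem_sup hm (by
    have := Submodule.neg_mem _ hmx
    rwa [neg_sub] at this)

end BC

end Groth.Agent.Lib.Helper24.Torsor
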